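import Groth.Agent.Ega4late.H540.IndexFunc
import Groth.Agent.Ega41.Cartier2
import Mathlib.RingTheory.Kaehler.Basic
import Mathlib.RingTheory.TensorProduct.IsBaseChangeHom

/-!
# Extending derivations to a finite field extension without loss of dimension
-/

set_option autoImplicit false
universe u

namespace Groth.Agent.Ega4late.H540.DerField

open KaehlerDifferential TensorProduct Module

/-- Let `L / F` be a finite field extension and `δ_1, …, δ_n` derivations of `F` with `δ_i t_j = δ_ij`.
There are `n` linearly independent derivations of `L` which restrict on `F` to combinations of the `δ_i`. -/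
theorem exists_derivations {F L : Type u} [Field F] [Field L] [Algebra F L] [Module.Finite F L] {n : ℕ}
    (δ : Fin n → Derivation ℤ F F) (t : Fin n → F) (ht : ∀ i j, δ i (t j) = if i = j then 1 else 0) :
    ∃ D : Fin n → Derivation ℤ L L, LinearIndependent L D ∧
      ∀ j, ∃ c : Fin n → L, ∀ x : F,
        D j (algebraMap F L x) = ∑ i, algebraMap F L (δ i x) * c i := by
  classical
  have hess : Algebra.EssFiniteType F L := inferInstance
  obtain ⟨-, hind⟩ := Groth.Agent.Ega41.Cartier2.cartier (K := F) (L := L)
  have htr : Algebra.trdeg F L = 0 := trdeg_eq_zero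
  rw [htr, map_zero, Nat.cast_zero] at hind
  let φ : L ⊗[F] Ω[F⁄ℤ] →ₗ[L] (Fin n → L) :=
    LinearMap.pi fun i => ((Algebra.linearMap F L) ∘ₗ (δ i).liftKaehlerDifferential).liftBaseChange L
  have hφ1 : ∀ (x : L) (a : F) (i : Fin n), φ (x ⊗ₜ KaehlerDifferential.D ℤ F a) i =
      x * algebraMap F L (δ i a) := by
    intro x a i
    simp [φ]
  have hφ : Function.Surjective φ := by
    intro c
    refine ⟨∑ j, c j ⊗ₜ KaehlerDifferential.D ℤ F (t j), ?_⟩
    ext i
    rw [map_sum, Finset.sum_apply]
    simp_rw [hφ1, ht]
    rw [Finset.sum_eq_single i]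
    · simp
    · intro j _ hj
      simp [hj.symm]
    · simp
  obtain ⟨E, hE, hEc⟩ := IndexFunc.exists_linearIndependent (mapBaseChange ℤ F L) hind φ hφ
  refine ⟨fun j => (E j).compDer (KaehlerDifferential.D ℤ L), ?_, fun j => ?_⟩
  · have h1 := hE.map' (KaehlerDifferential.linearMapEquivDerivation ℤ L (M := L)).toLinearMap
      (LinearEquiv.ker _)
    have h2 : (fun j => (E j).compDer (KaehlerDifferential.D ℤ L)) =
        (KaehlerDifferential.linearMapEquivDerivation ℤ L (M := L)).toLinearMap ∘ E := by
      funext j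
      rfl
    rw [h2]
    exact h1
  · obtain ⟨c, hc⟩ := hEc j
    refine ⟨c, fun x => ?_⟩
    have h1 := hc (1 ⊗ₜ KaehlerDifferential.D ℤ F x)
    rw [mapBaseChange_tmul, one_smul, KaehlerDifferential.map_D] at h1
    simp_rw [hφ1, one_mul] at h1
    exact h1

end Groth.Agent.Ega4late.H540.DerField
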