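import Groth.Agent.Ega4late.H540.DerField
import Groth.Agent.Ega41.NoethNorm
import Groth.Agent.CalgB.BddDer2
import Mathlib.RingTheory.MvPowerSeries.Derivative
import Mathlib.RingTheory.Localization.Finiteness

/-!
# Bounded derivations of a complete local domain

`R` a complete Noetherian local domain of dimension `n`, containing a field `k` over which the residue field
is finite; `L` its fraction field. There are `n` derivations `R → L` over `k`, linearly independent over `L`,
each with image in a finitely generated `R`-submodule of `L`.
-/

set_option autoImplicit false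
universe u

namespace Groth.Agent.Ega4late.H540.DomainDer

open IsLocalRing

/-- The fraction field of a domain which is finite over `R` is finite over the fraction field of `R`. -/
theorem finite_fractionRing (R A K₀ K : Type*) [CommRing R] [IsDomain R] [CommRing A] [IsDomain A]
    [Algebra R A] [Module.Finite R A] [Field K₀] [Algebra R K₀] [IsFractionRing R K₀] [Field K]
    [Algebra A K] [IsFractionRing A K] [Algebra R K] [IsScalarTower R A K] [Algebra K₀ K]
    [IsScalarTower R K₀ K] : Module.Finite K₀ K := by
  have hinj : Function.Injective (algebraMap R A) := by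
    have h1 : Function.Injective (algebraMap R K) := by
      rw [IsScalarTower.algebraMap_eq R K₀ K]
      exact (algebraMap K₀ K).injective.comp (IsFractionRing.injective R K₀)
    rw [IsScalarTower.algebraMap_eq R A K, RingHom.coe_comp] at h1
    exact h1.of_comp
  have : IsLocalization (Algebra.algebraMapSubmonoid A (nonZeroDivisors R)) K := by
    have hle : Algebra.algebraMapSubmonoid A (nonZeroDivisors R) ≤ nonZeroDivisors A := by
      rintro _ ⟨r, hr, rfl⟩
      have hr' : r ≠ 0 := nonZeroDivisors.ne_zero hr
      exact mem_nonZeroDivisors_iff_ne_zero.mpr fun h => hr' (hinj (by rw [h, map_zero]))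
    refine ⟨fun y => IsLocalization.map_units K (⟨y, hle y.2⟩ : nonZeroDivisors A), fun z => ?_, ?_⟩
    · obtain ⟨a, b, hb, rfl⟩ := IsFractionRing.div_surjective (A := A) z
      have hb0 : b ≠ 0 := nonZeroDivisors.ne_zero hb
      have halg : IsAlgebraic R b := (Algebra.IsIntegral.isIntegral b).isAlgebraic
      obtain ⟨r, hr0, c, hc⟩ := halg.exists_nonzero_dvd hb
      have hbK : algebraMap A K b ≠ 0 := fun h =>
        hb0 (IsFractionRing.injective A K (by rw [h, map_zero]))
      refine ⟨(a * c, ⟨algebraMap R A r, r, mem_nonZeroDivisors_iff_ne_zero.mpr hr0, rfl⟩), ?_⟩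
      simp only [hc, map_mul]
      field_simp
    · intro x y hxy
      exact ⟨1, by rw [IsFractionRing.injective A K hxy]⟩
  exact Module.Finite.of_isLocalization R A (nonZeroDivisors R)

/-- A derivation of the fraction field vanishing on the ring vanishes. -/
theorem derivation_eq_zero {R L : Type*} [CommRing R] [IsDomain R] [Field L] [Algebra R L]
    [IsFractionRing R L] (D : Derivation ℤ L L) (h : ∀ a : R, D (algebraMap R L a) = 0) : D = 0 := by
  ext x
  obtain ⟨a, b, hb, rfl⟩ := IsFractionRing.div_surjective (A := R) x
  have hb0 : algebraMap R L b ≠ 0 := by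
    intro h0
    exact nonZeroDivisors.ne_zero hb (IsFractionRing.injective R L (by rw [h0, map_zero]))
  rw [Derivation.leibniz_div, h, h]
  simp

/-- Extension of derivations to a finite domain extension, without loss of dimension, and boundedness. -/
theorem exists_derivations_of_finite (k S R L : Type u) [Field k] [CommRing S] [IsDomain S] [Algebra k S]
    [CommRing R] [IsDomain R] [Algebra k R] [Algebra S R] [IsScalarTower k S R] [Module.Finite S R]
    (hinjSR : Function.Injective (algebraMap S R)) [Field L] [Algebra R L] [IsFractionRing R L]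
    [Algebra k L] [IsScalarTower k R L] {n : ℕ} (δ₀ : Fin n → Derivation k S S) (t : Fin n → S)
    (ht : ∀ i j, δ₀ i (t j) = if i = j then 1 else 0) :
    ∃ D : Fin n → Derivation k R L,
      (∀ c : Fin n → L, (∀ a, ∑ j, c j * D j a = 0) → c = 0) ∧
      ∀ j, ∃ N : Submodule R L, N.FG ∧ ∀ a, D j a ∈ N := by
  classical
  let _ : Algebra S L := ((algebraMap R L).comp (algebraMap S R)).toAlgebra
  have tow2 : IsScalarTower S R L := IsScalarTower.of_algebraMap_eq fun _ => rfl
  have hinjSL : Function.Injective (algebraMap S L) := (IsFractionRing.injective R L).comp hinjSR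
  let _ : Algebra (FractionRing S) L := (IsFractionRing.lift (K := FractionRing S) hinjSL).toAlgebra
  have tow3 : IsScalarTower S (FractionRing S) L := IsScalarTower.of_algebraMap_eq fun s =>
    (IsFractionRing.lift_algebraMap hinjSL s).symm
  have hfinFL : Module.Finite (FractionRing S) L := finite_fractionRing S R (FractionRing S) L
  -- the derivations of the fraction field of `S`
  let δ₁ : Fin n → Derivation ℤ S (FractionRing S) := fun i =>
    (Algebra.linearMap S (FractionRing S)).compDer ((δ₀ i).restrictScalars ℤ)
  have het : Algebra.FormallyEtale S (FractionRing S) :=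
    Algebra.FormallyEtale.of_isLocalization (nonZeroDivisors S)
  choose δ hδ using fun i => CalgB.BddDer.exists_extend_of_formallyEtale
    (S := S) (T := FractionRing S) (δ₁ i)
  have hδ' : ∀ i s, δ i (algebraMap S (FractionRing S) s) = algebraMap S (FractionRing S) (δ₀ i s) :=
    fun i s => hδ i s
  obtain ⟨D, hD, hDc⟩ := DerField.exists_derivations (F := FractionRing S) (L := L) δ
    (fun j => algebraMap S (FractionRing S) (t j)) (by
      intro i j
      rw [hδ', ht]
      split_ifs with hij
      · rw [map_one]
      · rw [map_zero])
  choose c hc using hDc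
  have hDS : ∀ j (s : S), D j (algebraMap R L (algebraMap S R s)) =
      ∑ i, algebraMap S L (δ₀ i s) * c j i := by
    intro j s
    rw [← IsScalarTower.algebraMap_apply S R L, IsScalarTower.algebraMap_apply S (FractionRing S) L, hc]
    refine Finset.sum_congr rfl fun i _ => ?_
    rw [hδ', ← IsScalarTower.algebraMap_apply S (FractionRing S) L]
  have hDk : ∀ j (r : k), D j (algebraMap k L r) = 0 := by
    intro j r
    rw [IsScalarTower.algebraMap_apply k R L, IsScalarTower.algebraMap_apply k S R, hDS]
    refine Finset.sum_eq_zero fun i _ => ?_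
    rw [Derivation.map_algebraMap, map_zero, zero_mul]
  -- the restrictions to `R`
  let D' : Fin n → Derivation k R L := fun j =>
    { toFun := fun a => D j (algebraMap R L a)
      map_add' := fun a b => by rw [map_add, map_add]
      map_smul' := fun r a => by
        rw [Algebra.smul_def, map_mul, ← IsScalarTower.algebraMap_apply k R L, Derivation.leibniz,
          hDk, smul_zero, add_zero, RingHom.id_apply, smul_eq_mul, ← Algebra.smul_def]
      map_one_eq_zero' := by
        change D j (algebraMap R L 1) = 0
        rw [map_one, Derivation.map_one_eq_zero]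
      leibniz' := fun a b => by
        change D j (algebraMap R L (a * b)) = a • D j (algebraMap R L b) + b • D j (algebraMap R L a)
        rw [map_mul, Derivation.leibniz, smul_eq_mul, smul_eq_mul, ← Algebra.smul_def,
          ← Algebra.smul_def] }
  have hD' : ∀ j a, D' j a = D j (algebraMap R L a) := fun _ _ => rfl
  refine ⟨D', ?_, fun j => ?_⟩
  · intro e he
    have h1 : (∑ j, e j • D j) = 0 := by
      refine derivation_eq_zero (R := R) _ fun a => ?_
      have := he a
      simp only [hD'] at this
      rw [← this]
      have h2 := congrFun (map_sum (Derivation.coeFnAddMonoidHom (R := ℤ) (A := L) (M := L))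
        (fun j => e j • D j) Finset.univ) (algebraMap R L a)
      rw [Finset.sum_apply] at h2
      exact h2
    funext j
    exact Fintype.linearIndependent_iff.mp hD e h1 j
  · obtain ⟨g, hg⟩ := (Module.Finite.fg_top : (⊤ : Submodule S R).FG)
    let N₁ : Submodule R L := Submodule.span R (Set.range (c j))
    let N₂ : Submodule R L := Submodule.span R ((fun a => D' j a) '' (g : Set R))
    refine ⟨N₁ ⊔ N₂, (Submodule.fg_span (Set.finite_range _)).sup
      (Submodule.fg_span (g.finite_toSet.image _)), fun a => ?_⟩
    have ha : a ∈ Submodule.span S (g : Set R) := by rw [hg]; trivial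
    have hS : ∀ s : S, D' j (algebraMap S R s) ∈ N₁ := by
      intro s
      rw [hD', hDS]
      refine Submodule.sum_mem _ fun i _ => ?_
      rw [IsScalarTower.algebraMap_apply S R L, ← Algebra.smul_def]
      exact Submodule.smul_mem _ _ (Submodule.subset_span ⟨i, rfl⟩)
    induction ha using Submodule.span_induction with
    | mem y hy => exact Submodule.mem_sup_right (Submodule.subset_span ⟨y, hy, rfl⟩)
    | zero => rw [map_zero]; exact Submodule.zero_mem _
    | add y z _ _ hy hz => rw [map_add]; exact Submodule.add_mem _ hy hz
    | smul s y _ hy =>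
      rw [Algebra.smul_def, Derivation.leibniz]
      exact Submodule.add_mem _ (Submodule.smul_mem _ _ hy)
        (Submodule.smul_mem _ _ (Submodule.mem_sup_left (hS s)))

/-- Enough bounded derivations for a complete Noetherian local domain. -/
theorem exists_bounded_derivations (k R L : Type u) [Field k] [CommRing R] [IsDomain R]
    [IsLocalRing R] [IsNoetherianRing R] [Algebra k R] [IsAdicComplete (maximalIdeal R) R]
    [Module.Finite k (ResidueField R)] [Field L] [Algebra R L] [IsFractionRing R L] [Algebra k L]
    [IsScalarTower k R L] :
    ∃ n : ℕ, ringKrullDim R = n ∧ ∃ D : Fin n → Derivation k R L,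
      (∀ c : Fin n → L, (∀ a, ∑ j, c j * D j a = 0) → c = 0) ∧
      ∀ j, ∃ N : Submodule R L, N.FG ∧ ∀ a, D j a ∈ N := by
  classical
  obtain ⟨n, x, hx, hdim, hinj, -, hfin⟩ := Ega41.NoethNorm.exists_powEval (k₀ := k) (A := R)
  refine ⟨n, hdim, ?_⟩
  let w : MvPowerSeries (Fin n) k →ₐ[k] R := Ega41.PowEval.powEval (R := k) (maximalIdeal R) x hx
  let _ : Algebra (MvPowerSeries (Fin n) k) R := w.toRingHom.toAlgebra
  have hwalg : ∀ f : MvPowerSeries (Fin n) k, algebraMap _ R f = w f := fun f ↦ rfl
  have tow1 : IsScalarTower k (MvPowerSeries (Fin n) k) R := IsScalarTower.of_algebraMap_eq fun r ↦ by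
    rw [hwalg, w.commutes]
  have hfinSR : Module.Finite (MvPowerSeries (Fin n) k) R := hfin
  have hdom : IsDomain (MvPowerSeries (Fin n) k) := NoZeroDivisors.to_isDomain _
  refine exists_derivations_of_finite k (MvPowerSeries (Fin n) k) R L hinj
    (fun i => MvPowerSeries.pderiv k i) MvPowerSeries.X fun i j => ?_
  split_ifs with hij
  · subst hij
    exact MvPowerSeries.pderiv_X_self
  · exact MvPowerSeries.pderiv_X_of_ne (Ne.symm hij)

end Groth.Agent.Ega4late.H540.DomainDer
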