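import Groth.Agent.Ega41.LinIndex
import Mathlib.LinearAlgebra.Dual.Lemmas
import Mathlib.LinearAlgebra.Dimension.Constructions
import Mathlib.LinearAlgebra.Isomorphisms

/-!
# Functionals on the target of a linear map of index zero
-/

set_option autoImplicit false

namespace Groth.Agent.Ega4late.H540.IndexFunc

open Groth.Agent.Ega41.LinIndex Module

/-- If `α : V → W` has index `0` and `φ : V → R ^ n` is surjective, there are `n` linearly independent
functionals on `W` whose restrictions along `α` are combinations of the coordinates of `φ`. -/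
theorem exists_linearIndependent {R : Type*} [Field R] {V W : Type*} [AddCommGroup V] [Module R V]
    [AddCommGroup W] [Module R W] {n : ℕ} (α : V →ₗ[R] W) (hα : HasIndex α 0)
    (φ : V →ₗ[R] (Fin n → R)) (hφ : Function.Surjective φ) :
    ∃ D : Fin n → (W →ₗ[R] R), LinearIndependent R D ∧
      ∀ j, ∃ c : Fin n → R, ∀ v, D j (α v) = ∑ i, φ v i * c i := by
  classical
  obtain ⟨hker, hcoker, hind⟩ := hα
  set N : Submodule R W := (LinearMap.ker φ).map α with hN
  set T : Submodule R W := LinearMap.range α with hT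
  have hNT : N ≤ T := by
    rintro _ ⟨v, -, rfl⟩
    exact ⟨v, rfl⟩
  obtain ⟨s, hs⟩ := LinearMap.exists_rightInverse_of_surjective φ (LinearMap.range_eq_top.mpr hφ)
  have hs' : ∀ c, φ (s c) = c := fun c => LinearMap.congr_fun hs c
  let γ : (Fin n → R) →ₗ[R] W ⧸ N := N.mkQ ∘ₗ α ∘ₗ s
  have hγ : ∀ v, γ (φ v) = N.mkQ (α v) := by
    intro v
    change N.mkQ (α (s (φ v))) = N.mkQ (α v)
    rw [← sub_eq_zero, ← map_sub, ← map_sub, Submodule.mkQ_apply, Submodule.Quotient.mk_eq_zero]
    refine Submodule.mem_map_of_mem ?_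
    rw [LinearMap.mem_ker, map_sub, hs', sub_self]
  have hrange : LinearMap.range γ = T.map N.mkQ := by
    ext y
    constructor
    · rintro ⟨c, rfl⟩
      exact ⟨α (s c), ⟨s c, rfl⟩, rfl⟩
    · rintro ⟨_, ⟨v, rfl⟩, rfl⟩
      exact ⟨φ v, hγ v⟩
  have hkerγ : LinearMap.ker γ ≤ (LinearMap.ker α).map φ := by
    intro c hc
    have h1 : α (s c) ∈ N := by
      have : N.mkQ (α (s c)) = 0 := hc
      rwa [Submodule.mkQ_apply, Submodule.Quotient.mk_eq_zero] at this
    obtain ⟨z, hz, hz'⟩ := h1
    refine ⟨s c - z, ?_, ?_⟩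
    · rw [SetLike.mem_coe, LinearMap.mem_ker, map_sub, hz', sub_self]
    · rw [map_sub, hs', LinearMap.mem_ker.mp hz, sub_zero]
  have e : ((W ⧸ N) ⧸ LinearMap.range γ) ≃ₗ[R] W ⧸ T :=
    (Submodule.quotEquivOfEq _ _ hrange).trans (Submodule.quotientQuotientEquivQuotient N T hNT)
  have : Module.Finite R ((W ⧸ N) ⧸ LinearMap.range γ) := Module.Finite.equiv e.symm
  have hfin : Module.Finite R (W ⧸ N) := Module.Finite.of_submodule_quotient (LinearMap.range γ)
  have h1 := LinearMap.finrank_range_add_finrank_ker γ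
  have h2 : finrank R ((W ⧸ N) ⧸ LinearMap.range γ) + finrank R (LinearMap.range γ) = finrank R (W ⧸ N) :=
    Submodule.finrank_quotient_add_finrank _
  have h3 : finrank R ((W ⧸ N) ⧸ LinearMap.range γ) = finrank R (W ⧸ T) := e.finrank_eq
  have h4 : finrank R (LinearMap.ker γ) ≤ finrank R (LinearMap.ker α) :=
    (Submodule.finrank_mono hkerγ).trans (Submodule.finrank_map_le φ (LinearMap.ker α))
  have h5 : finrank R (Fin n → R) = n := by simp
  have hn : n ≤ finrank R (W ⧸ N) := by omega
  let b := Module.finBasis R (W ⧸ N)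
  let emb : Fin n → Fin (finrank R (W ⧸ N)) := Fin.castLE hn
  refine ⟨fun j => (b.coord (emb j)) ∘ₗ N.mkQ, ?_, fun j => ⟨fun i => b.coord (emb j) (γ (Pi.single i 1)), ?_⟩⟩
  · have h6 : LinearIndependent R (fun j : Fin n => b.dualBasis (emb j)) :=
      b.dualBasis.linearIndependent.comp emb (Fin.castLE_injective hn)
    have h7 : Function.Injective (N.mkQ.dualMap) :=
      LinearMap.dualMap_injective_of_surjective (Submodule.mkQ_surjective N)
    have h8 := h6.map' N.mkQ.dualMap (LinearMap.ker_eq_bot.mpr h7)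
    have h9 : (fun j => (b.coord (emb j)) ∘ₗ N.mkQ) = N.mkQ.dualMap ∘ (fun j => b.dualBasis (emb j)) := by
      funext j
      ext w
      simp [Basis.coe_dualBasis]
    rw [h9]
    exact h8
  · intro v
    rw [LinearMap.comp_apply, ← hγ]
    have h9 : φ v = ∑ i, φ v i • (Pi.single i (1 : R) : Fin n → R) := by
      ext j
      simp [Finset.sum_apply, Pi.single_apply]
    conv_lhs => rw [h9]
    rw [map_sum, map_sum]
    refine Finset.sum_congr rfl fun i _ => ?_
    rw [map_smul, map_smul, smul_eq_mul]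

end Groth.Agent.Ega4late.H540.IndexFunc
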