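import Groth.Agent.Ega4late.H540.DomainDer
import Groth.Agent.Ega4late.H539.OmegaHat
import Groth.Agent.Ega3A.FiberRank
import Mathlib.RingTheory.AdicCompletion.Exactness
import Mathlib.RingTheory.AdicCompletion.Noetherian
import Mathlib.RingTheory.LocalRing.ResidueField.Ideal
import Mathlib.LinearAlgebra.Dual.Lemmas

/-!
# The fibre rank of the completed module of differentials is at least the dimension of the component
-/

set_option autoImplicit false
universe u

namespace Groth.Agent.Ega4late.H540.RankLower

open IsLocalRing TensorProduct Module H539.OmegaHat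

/-- A quotient of a complete Noetherian local ring is complete. -/
theorem isAdicComplete_quotient (A : Type u) [CommRing A] [IsNoetherianRing A] [IsLocalRing A]
    [IsAdicComplete (IsLocalRing.maximalIdeal A) A] (p : Ideal A) [IsLocalRing (A ⧸ p)] :
    IsAdicComplete (IsLocalRing.maximalIdeal (A ⧸ p)) (A ⧸ p) := by
  have h1 : IsAdicComplete (IsLocalRing.maximalIdeal A) (A ⧸ p) := by
    rw [← AdicCompletion.of_bijective_iff]
    constructor
    · exact AdicCompletion.of_injective_iff.mpr inferInstance
    · have hs : Function.Surjective (AdicCompletion.map (IsLocalRing.maximalIdeal A)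
          (Submodule.mkQ p)) :=
        AdicCompletion.map_surjective _ (Submodule.mkQ_surjective p)
      intro y
      obtain ⟨x, rfl⟩ := hs y
      obtain ⟨z, rfl⟩ := (AdicCompletion.of_bijective (IsLocalRing.maximalIdeal A) A).2 x
      refine ⟨Submodule.mkQ p z, ?_⟩
      rw [AdicCompletion.map_of]
  have h2 : (IsLocalRing.maximalIdeal A).map (algebraMap A (A ⧸ p)) =
      IsLocalRing.maximalIdeal (A ⧸ p) :=
    IsLocalRing.map_maximalIdeal_of_surjective _ Ideal.Quotient.mk_surjective
  rw [← h2, IsAdicComplete.map_algebraMap_iff]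
  exact h1

/-- `n` linearly independent functionals bound the dimension of the source from below. -/
theorem le_finrank_of_functionals {A M L : Type*} [CommRing A] [AddCommGroup M] [Module A M]
    [Module.Finite A M] [Field L] [Algebra A L] {n : ℕ} (f : Fin n → (M →ₗ[A] L))
    (hf : ∀ c : Fin n → L, (∀ m, ∑ j, c j * f j m = 0) → c = 0) :
    n ≤ Module.finrank L (L ⊗[A] M) := by
  let g : Fin n → (L ⊗[A] M →ₗ[L] L) := fun j => (f j).liftBaseChange L
  have hg : LinearIndependent L g := by
    rw [Fintype.linearIndependent_iff]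
    intro c hc i
    refine congrFun (hf c fun m => ?_) i
    have := LinearMap.congr_fun hc (1 ⊗ₜ m)
    simpa [g] using this
  have h1 := hg.fintype_card_le_finrank
  rw [Fintype.card_fin] at h1
  exact h1.trans (Subspace.dual_finrank_eq (K := L) (V := L ⊗[A] M)).le

variable (k A : Type u) [Field k] [CommRing A] [IsLocalRing A] [IsNoetherianRing A] [Algebra k A]
    [IsAdicComplete (maximalIdeal A) A] [Module.Finite k (ResidueField A)]

/-- The dimension of `A ⧸ q` is at most the rank of `Ω̂` at `q`. -/
theorem exists_dim_le_rank (q : Ideal A) [q.IsPrime] :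
    ∃ n : ℕ, ringKrullDim (A ⧸ q) = n ∧
      n ≤ Module.finrank q.ResidueField (q.ResidueField ⊗[A] OmHat k A) := by
  have hnt : Nontrivial (A ⧸ q) := Ideal.Quotient.nontrivial_iff.mpr (Ideal.IsPrime.ne_top')
  have hloc : IsLocalRing (A ⧸ q) :=
    IsLocalRing.of_surjective' (Ideal.Quotient.mk q) Ideal.Quotient.mk_surjective
  have hcpl : IsAdicComplete (maximalIdeal (A ⧸ q)) (A ⧸ q) := isAdicComplete_quotient A q
  have hlh : IsLocalHom (Ideal.Quotient.mk q) :=
    IsLocalHom.of_surjective _ Ideal.Quotient.mk_surjective
  have hfin : Module.Finite k (ResidueField (A ⧸ q)) := by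
    let φ : ResidueField A →ₐ[k] ResidueField (A ⧸ q) :=
      { ResidueField.map (Ideal.Quotient.mk q) with
        commutes' := fun r ↦ rfl }
    have hφ : Function.Surjective φ := by
      intro y
      obtain ⟨b, rfl⟩ := residue_surjective y
      obtain ⟨a, rfl⟩ := Ideal.Quotient.mk_surjective b
      exact ⟨residue A a, rfl⟩
    exact Module.Finite.of_surjective φ.toLinearMap hφ
  have htow : IsScalarTower k (A ⧸ q) q.ResidueField := IsScalarTower.of_algebraMap_eq fun r => by
    rw [IsScalarTower.algebraMap_apply k A (A ⧸ q), ← IsScalarTower.algebraMap_apply A (A ⧸ q),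
      ← IsScalarTower.algebraMap_apply k A]
  obtain ⟨n, hn, D, hD, hDb⟩ :=
    DomainDer.exists_bounded_derivations k (A ⧸ q) q.ResidueField
  refine ⟨n, hn, ?_⟩
  -- derivations of `A`
  let δ : Fin n → Derivation k A q.ResidueField := fun j =>
    { toFun := fun a => D j (Ideal.Quotient.mk q a)
      map_add' := fun a b => by rw [map_add, map_add]
      map_smul' := fun r a => by
        have : Ideal.Quotient.mk q (r • a) = r • Ideal.Quotient.mk q a := rfl
        rw [this, Derivation.map_smul, RingHom.id_apply]
      map_one_eq_zero' := by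
        change D j (Ideal.Quotient.mk q 1) = 0
        rw [map_one, Derivation.map_one_eq_zero]
      leibniz' := fun a b => by
        change D j (Ideal.Quotient.mk q (a * b)) =
          a • D j (Ideal.Quotient.mk q b) + b • D j (Ideal.Quotient.mk q a)
        rw [map_mul, Derivation.leibniz]
        have h : ∀ (x : A) (y : q.ResidueField), Ideal.Quotient.mk q x • y = x • y := fun x y => by
          rw [Algebra.smul_def, Algebra.smul_def, IsScalarTower.algebraMap_apply A (A ⧸ q)]
          rfl
        rw [h, h] }
  have hδ : ∀ j a, δ j a = D j (Ideal.Quotient.mk q a) := fun _ _ => rfl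
  have hlift : ∀ j, ∃ f : OmHat k A →ₗ[A] q.ResidueField, ∀ a, f (dHat k A a) = δ j a := by
    intro j
    obtain ⟨N, hN, hDN⟩ := hDb j
    have hN' : (N.restrictScalars A).FG := by
      have : Module.Finite (A ⧸ q) N := Module.Finite.iff_fg.mpr hN
      have h2 : Module.Finite A N := Module.Finite.trans (A ⧸ q) N
      exact Module.Finite.iff_fg.mp h2
    obtain ⟨f, hf, -⟩ := exists_lift_of_bounded (δ j) (N.restrictScalars A) hN' (fun a => hDN _)
    exact ⟨f, hf⟩
  choose f hf using hlift
  refine le_finrank_of_functionals f fun c hc => hD c fun a => ?_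
  obtain ⟨a, rfl⟩ := Ideal.Quotient.mk_surjective a
  have := hc (dHat k A a)
  simp only [hf, hδ] at this
  exact this

/-- The rank of `Ω̂` at `p` is at least `dim (A ⧸ q)` for every prime `q ≤ p`. -/
theorem ringKrullDim_quotient_le_rank (p q : Ideal A) [p.IsPrime] [q.IsPrime] (hqp : q ≤ p) :
    ringKrullDim (A ⧸ q) ≤
      (Cardinal.toENat (Module.rank p.ResidueField (p.ResidueField ⊗[A] OmHat k A)) : WithBot ℕ∞) := by
  obtain ⟨n, hn, hle⟩ := exists_dim_le_rank k A q
  have h1 : Module.finrank q.ResidueField (q.ResidueField ⊗[A] OmHat k A) ≤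
      Module.finrank p.ResidueField (p.ResidueField ⊗[A] OmHat k A) :=
    Ega3A.FiberRank.fiberRank_mono (M := OmHat k A) (x := ⟨q, inferInstance⟩) (y := ⟨p, inferInstance⟩) hqp
  rw [hn, ← Module.finrank_eq_rank, map_natCast]
  exact_mod_cast hle.trans h1

end Groth.Agent.Ega4late.H540.RankLower
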